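import Groth.Agent.FormalB.ModPow
import Groth.Agent.FormalB.HHLes
import Groth.Agent.FormalA.HHLin
import Groth.Agent.FormalA.FFAlg

/-!
# The comparison map `H^i(X, F) → lim H^i(X, F/t^(k+1)F)` for a principal ideal

`X` a scheme over `Spec A`, `t : A`, `F` an `O_X`-module on which `t` is injective.

* `shortExact` : `0 → F → F → F/t^(k+1)F → 0` (multiplication by `t^(k+1)`).
* `injective_toHHlim` : if `H^i(X, F)` is `t`-adically separated then `Formal.toHHlim (t) F i` is injective.
* `surjective_toHHlim` : if `H^i(X, F)` is `t`-adically precomplete and `H^(i+1)(X, F)` is `t`-adically separated then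
  `Formal.toHHlim (t) F i` is surjective.
-/

set_option autoImplicit false
universe u

open CategoryTheory CategoryTheory.Limits AlgebraicGeometry Opposite

namespace Groth.Agent.Sga2lef.H94.PrincLim

open Groth.Agent.FormalB.ModPow Groth.Agent.FormalA.HHLin

variable {A : Type u} [CommRing A] {X : Scheme.{u}} [X.Over (Spec (CommRingCat.of A))]

theorem smulMod_pow_mono (F : X.Modules) (t : A) [Mono (Formal.smulMod A F t)] (n : ℕ) :
    Mono (Formal.smulMod A F (t ^ n)) := by
  induction n with
  | zero =>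
    rw [pow_zero, smulMod_one]
    infer_instance
  | succ n ih =>
    rw [pow_succ, smulMod_mul]
    exact mono_comp _ _

theorem smulMod_pow_comp (F : X.Modules) (t : A) (n : ℕ) :
    Formal.smulMod A F (t ^ n) ≫ Formal.modPowπ (Ideal.span {t}) n F = 0 :=
  (isModPow_modPowπ (Ideal.span {t}) n F).smul_comp _
    (Ideal.pow_mem_pow (Ideal.mem_span_singleton_self t) n)

/-- `0 → F → F → F/t^nF → 0`. -/
noncomputable abbrev sc (F : X.Modules) (t : A) (n : ℕ) : ShortComplex X.Modules :=
  ShortComplex.mk (Formal.smulMod A F (t ^ n)) (Formal.modPowπ (Ideal.span {t}) n F)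
    (smulMod_pow_comp F t n)

theorem shortExact (F : X.Modules) (t : A) [Mono (Formal.smulMod A F t)] (n : ℕ) :
    (sc F t n).ShortExact := by
  have hq := isModPow_modPowπ (Ideal.span {t}) n F
  have hepi : Epi (Formal.modPowπ (Ideal.span {t}) n F) := hq.epi
  refine { exact := ?_, mono_f := smulMod_pow_mono F t n, epi_g := hepi }
  have key : ∀ {Z : X.Modules} (k : F ⟶ Z), Formal.smulMod A F (t ^ n) ≫ k = 0 →
      ∃ ψ : Formal.modPow (Ideal.span {t}) n F ⟶ Z, Formal.modPowπ (Ideal.span {t}) n F ≫ ψ = k := by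
    intro Z k hk
    refine hq.desc k ?_
    intro a ha
    rw [Ideal.span_singleton_pow] at ha
    obtain ⟨b, rfl⟩ := Ideal.mem_span_singleton'.1 ha
    rw [Groth.Agent.FormalB.ModPow.smulMod_mul, Category.assoc,
      Groth.Agent.FormalB.ModPow.smulMod_naturality k b, reassoc_of% hk, zero_comp]
  apply ShortComplex.exact_of_g_is_cokernel
  refine CokernelCofork.IsColimit.ofπ _ _ (fun {Z} k hk => (key k hk).choose) (fun {Z} k hk =>
    (key k hk).choose_spec) (fun {Z} k hk m hm => ?_)
  exact (cancel_epi (Formal.modPowπ (Ideal.span {t}) n F)).1 (hm.trans (key k hk).choose_spec.symm)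

/-- The kernel of `H^i(X, F) → H^i(X, F/t^nF)` is `t^n H^i(X, F)`. -/
theorem exists_of_map_eq_zero (F : X.Modules) (t : A) [Mono (Formal.smulMod A F t)] (n i : ℕ)
    (x : Coh.HH X F i) (hx : HHmap A (Formal.modPowπ (Ideal.span {t}) n F) i x = 0) :
    ∃ y : Coh.HH X F i, t ^ n • y = x := by
  obtain ⟨y, hy⟩ := (Groth.Agent.FormalB.HHLes.exact_map_map A (shortExact F t n) i x).1 hx
  exact ⟨y, hy⟩

theorem mem_smul_top_of_map_eq_zero (F : X.Modules) (t : A) [Mono (Formal.smulMod A F t)] (n i : ℕ)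
    (x : Coh.HH X F i) (hx : HHmap A (Formal.modPowπ (Ideal.span {t}) n F) i x = 0) :
    x ∈ (Ideal.span {t} ^ n • ⊤ : Submodule A (Coh.HH X F i)) := by
  obtain ⟨y, rfl⟩ := exists_of_map_eq_zero F t n i x hx
  exact Submodule.smul_mem_smul (Ideal.pow_mem_pow (Ideal.mem_span_singleton_self t) n) trivial

theorem injective_toHHlim (F : X.Modules) (t : A) [Mono (Formal.smulMod A F t)] (i : ℕ)
    [IsHausdorff (Ideal.span {t}) (Coh.HH X F i)] :
    Function.Injective (Formal.toHHlim (Ideal.span {t}) F i) := by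
  rw [injective_iff_map_eq_zero]
  intro x hx
  refine Groth.Agent.FormalA.FFAlg.injective_of_kernel (Ideal.span {t})
    (fun n => Formal.HHmodPow (Ideal.span {t}) F i n)
    (fun n => HHmap A (Formal.modPowπ (Ideal.span {t}) (n + 1) F) i) 0
    (fun n _ x hx => ?_) x fun n => ?_
  · exact Submodule.smul_mono_left (Ideal.pow_le_pow_right (by omega))
      (mem_smul_top_of_map_eq_zero F t (n + 1) i x hx)
  · exact congrFun (congrArg Subtype.val hx) n

/-- The morphism of short exact sequences from level `n + k` to level `n`. -/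
noncomputable def scMap (F : X.Modules) (t : A) (n : ℕ) : sc F t (n + 1) ⟶ sc F t n where
  τ₁ := Formal.smulMod A F t
  τ₂ := 𝟙 _
  τ₃ := Formal.modPowTrans (Ideal.span {t}) n F
  comm₁₂ := by
    dsimp only [sc]
    rw [Category.comp_id, pow_succ, smulMod_mul]
  comm₂₃ := by
    dsimp only [sc]
    rw [Category.id_comp, Formal.modPowπ_trans]

/-- For a compatible family `y`, the boundary of `y_n` is `t^k` times the boundary of `y_(n+k)`. -/
theorem δ_compat (F : X.Modules) (t : A) [Mono (Formal.smulMod A F t)] (i : ℕ)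
    (y : Formal.HHlim (Ideal.span {t}) F i) (n k : ℕ) :
    Groth.Agent.FormalB.HHLes.δ A (shortExact F t (n + 1)) i (y.1 n) =
      t ^ k • (show Coh.HH X F (i + 1) from
        Groth.Agent.FormalB.HHLes.δ A (shortExact F t (n + k + 1)) i (y.1 (n + k))) := by
  induction k with
  | zero => rw [pow_zero, one_smul]; rfl
  | succ k ih =>
    have h1 := LinearMap.congr_fun (Groth.Agent.FormalB.HHLes.δ_naturality A
      (shortExact F t (n + k + 1 + 1)) (shortExact F t (n + k + 1)) (scMap F t (n + k + 1)) i)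
      (y.1 (n + (k + 1)))
    have h2 : HHmap A (Formal.modPowTrans (Ideal.span {t}) (n + k + 1) F) i (y.1 (n + (k + 1))) =
      y.1 (n + k) := y.2 (n + k)
    have h3 : Groth.Agent.FormalB.HHLes.δ A (shortExact F t (n + k + 1)) i (y.1 (n + k)) =
      t • (show Coh.HH X F (i + 1) from
        Groth.Agent.FormalB.HHLes.δ A (shortExact F t (n + k + 1 + 1)) i (y.1 (n + (k + 1)))) := by
      rw [← h2]
      exact h1
    rw [ih, pow_succ, mul_smul]
    exact congrArg (fun z : Coh.HH X F (i + 1) => t ^ k • z) h3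

theorem surjective_toHHlim (F : X.Modules) (t : A) [Mono (Formal.smulMod A F t)] (i : ℕ)
    [IsPrecomplete (Ideal.span {t}) (Coh.HH X F i)]
    (hsep : ∀ z : Coh.HH X F (i + 1), (∀ k : ℕ, ∃ w : Coh.HH X F (i + 1), t ^ k • w = z) → z = 0) :
    Function.Surjective (Formal.toHHlim (Ideal.span {t}) F i) := by
  intro y
  have hr : ∀ n, ∃ x : Coh.HH X F i, HHmap A (Formal.modPowπ (Ideal.span {t}) (n + 1) F) i x = y.1 n := by
    intro n
    refine (Groth.Agent.FormalB.HHLes.exact_map_δ A (shortExact F t (n + 1)) i (y.1 n)).1 ?_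
    exact hsep _ fun k => ⟨_, (δ_compat F t i y n k).symm⟩
  obtain ⟨x, hx⟩ := Groth.Agent.FormalA.FFAlg.surjective_of_kernel (Ideal.span {t})
    (fun n => Formal.HHmodPow (Ideal.span {t}) F i n)
    (fun n => HHmap A (Formal.modPowπ (Ideal.span {t}) (n + 1) F) i) 0
    (fun n _ x hx => Submodule.smul_mono_left (Ideal.pow_le_pow_right (by omega))
      (mem_smul_top_of_map_eq_zero F t (n + 1) i x hx))
    (Formal.HHmodPowTrans (Ideal.span {t}) F i)
    (fun n x => (Formal.toHHlim (Ideal.span {t}) F i x).2 n)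
    (fun n a ha x => smul_eq_zero_of_killedBy _ (killedBy_modPow (Ideal.span {t}) (n + 1)) i a ha x)
    y.1 y.2 hr
  exact ⟨x, Subtype.ext (funext hx)⟩

end Groth.Agent.Sga2lef.H94.PrincLim
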