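import Groth.Agent.FormalB.PuncDelta

/-!
# Finiteness of `H^i(U, M~)`, `U = Spec A ∖ V(𝔞)`, from finiteness of local cohomology

* `finite_HH_succ` : `H^(p+2)_𝔞(M)` finite implies `H^(p+1)(U, M~)` finite.
* `finite_HH_le` : for `M` finite, `H^i_𝔞(M)` finite for `i ≤ n + 1` implies `H^i(U, M~)` finite for `i ≤ n`.
-/

set_option autoImplicit false
universe u

open CategoryTheory CategoryTheory.Limits AlgebraicGeometry Opposite TopologicalSpace
open Groth.Agent.FormalB.PuncTheta Groth.Agent.FormalB.HHDelta Groth.Agent.FormalB.GamZero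
open Groth.Agent.Localalg.DeltaFun Groth.Agent.Localalg.LCAbs Groth.Agent.Localalg.Gam
open Groth.Agent.FormalB.PuncDelta

namespace Groth.Agent.Sga2lef.H94.PuncFin

variable {A : Type u} [CommRing A] [IsNoetherianRing A] (𝔞 : Ideal A)

theorem finite_TU_succ (p : ℕ) : ∀ (M : ModuleCat.{u} A),
    Module.Finite A ((lc 𝔞).obj (p + 2) M) →
    Module.Finite A (((TU (LocCoh.puncturedOpen A 𝔞)).T (p + 1)).obj M) := by
  induction p with
  | zero =>
    intro M h
    exact FormalB.DeltaComp.finite_one (lc 𝔞)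
      (TU (LocCoh.puncturedOpen A 𝔞)) (η _)
      (fun J _ => η_surjective _ J) (η_eq_zero_iff 𝔞) (fun φ _ => TU_zero_injective _ φ)
      (fun J _ => isZero_hh_injective _ J 0) M h
  | succ p ih =>
    intro M h
    have h1 : Function.Injective ((lc 𝔞).D.δ (injSES_shortExact M) (p + 2)).hom := by
      rw [← LinearMap.ker_eq_bot, eq_bot_iff]
      intro x hx
      obtain ⟨y, hy⟩ := (ShortComplex.moduleCat_exact_iff _).1
        ((lc 𝔞).D.exact₃ (injSES_shortExact M) (p + 2)) x hx
      have : y = 0 := by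
        have h := (lc 𝔞).eff (injSES M).X₂ (p + 1)
        exact (ModuleCat.subsingleton_of_isZero h).elim _ _
      rw [Submodule.mem_bot, ← hy, this]
      exact map_zero _
    have h2 : Module.Finite A ((lc 𝔞).obj (p + 2) (injSES M).X₃) :=
      Module.Finite.of_injective _ h1
    have h3 := ih _ h2
    have h4 : Epi ((TU (LocCoh.puncturedOpen A 𝔞)).δ (injSES_shortExact M) (p + 1)) :=
      epi_δ _ (injSES_shortExact M) (p + 1) (isZero_hh_injective _ (injSES M).X₂ (p + 1))
    exact Module.Finite.of_surjective _ ((ModuleCat.epi_iff_surjective _).1 h4)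

/-- `H^(p+1)(U, M~)` is finite when `H^(p+2)_𝔞(M)` is. -/
theorem finite_HH_succ (M : Type u) [AddCommGroup M] [Module A M] (p : ℕ)
    (h : Module.Finite A (LocCoh.H 𝔞 (p + 2) M)) :
    Module.Finite A (Coh.HH (LocCoh.puncturedOpen A 𝔞 : Scheme.{u})
      ((Theta (LocCoh.puncturedOpen A 𝔞)).obj (ModuleCat.of A M)) (p + 1)) :=
  finite_TU_succ 𝔞 p (ModuleCat.of A M) h

/-- `H^i(U, M~)` is finite for `i ≤ n` when `M` is finite and `H^i_𝔞(M)` is finite for `i ≤ n + 1`. -/
theorem finite_HH_le (M : Type u) [AddCommGroup M] [Module A M] [Module.Finite A M] (n : ℕ)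
    (h : ∀ i : ℕ, i ≤ n + 1 → Module.Finite A (LocCoh.H 𝔞 i M)) (i : ℕ) (hi : i ≤ n) :
    Module.Finite A (Coh.HH (LocCoh.puncturedOpen A 𝔞 : Scheme.{u})
      ((Theta (LocCoh.puncturedOpen A 𝔞)).obj (ModuleCat.of A M)) i) := by
  cases i with
  | zero => exact finite_HH_zero 𝔞 M (h 1 (by omega))
  | succ i => exact finite_HH_succ 𝔞 M i (h (i + 2) (by omega))

end Groth.Agent.Sga2lef.H94.PuncFin
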