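import Groth.Agent.Ega4dB.DepthOpen
import Groth.Agent.Dcoh.StalkRestrict
import Groth.Agent.PerfC.TildeStalk
import Groth.Agent.Fdesc.PullbackStalk
import Groth.Agent.FormalB.PuncTheta

/-!
# Depth of the stalks of `M~` and of `M~|_U`
-/

set_option autoImplicit false
universe u

open CategoryTheory CategoryTheory.Limits AlgebraicGeometry Opposite TopologicalSpace
open Groth.Agent.FormalB.PuncTheta

namespace Groth.Agent.Sga2lef.H94.StalkDepth

/-- The depth of the stalk of `N~`. -/
theorem depth_tilde_stalk (R : CommRingCat.{u}) (N : ModuleCat.{u} R) (x : Spec R) :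
    LocCoh.depth ((Spec R).presheaf.stalk x) ((tilde N).presheaf.stalk x) =
      LocCoh.depth (Localization.AtPrime (PerfC.TildeStalk.px x))
        (LocalizedModule (PerfC.TildeStalk.px x).primeCompl N) := by
  let : Algebra R ((Spec R).presheaf.stalk x) := (PerfC.TildeStalk.alpha x).toAlgebra
  let : Module R ((tilde N).presheaf.stalk x) := Module.compHom _ (PerfC.TildeStalk.alpha x)
  have : IsScalarTower R ((Spec R).presheaf.stalk x) ((tilde N).presheaf.stalk x) :=
    IsScalarTower.of_algebraMap_smul fun _ _ => rfl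
  have : IsLocalization.AtPrime ((Spec R).presheaf.stalk x) (PerfC.TildeStalk.px x) :=
    PerfC.TildeStalk.isLocalization_alpha x
  let g : N →ₗ[R] ((tilde N).presheaf.stalk x) :=
    { toFun := (PerfC.TildeStalk.toSt x N).hom
      map_add' := fun a b => map_add _ a b
      map_smul' := fun r a => LinearMap.map_smul (PerfC.TildeStalk.toSt x N).hom r a }
  have : IsLocalizedModule (PerfC.TildeStalk.px x).primeCompl g :=
    PerfC.TildeStalk.isLocalizedModule_toSt x N
  exact Ega4dB.DepthOpen.depth_eq_of_isLocalizedModule (PerfC.TildeStalk.px x) N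
    ((Spec R).presheaf.stalk x) g

/-- The depth of the stalk of a restriction along an open immersion. -/
theorem depth_restrict_stalk {X Y : Scheme.{u}} (f : X ⟶ Y) [IsOpenImmersion f] (M : Y.Modules) (x : X) :
    LocCoh.depth (X.presheaf.stalk x) ((M.restrict f).presheaf.stalk x) =
      LocCoh.depth (Y.presheaf.stalk (f x)) (M.presheaf.stalk (f x)) :=
  Ega4dB.DepthOpen.depth_congr_semilinear (Dcoh.StalkRestrict.stalkEquiv f x).symm
    (Dcoh.StalkRestrict.ρ f M x) (fun r m => Dcoh.StalkRestrict.ρ_smul' f M x r m)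

/-- Isomorphic modules have stalks of the same depth. -/
theorem depth_stalk_iso {X : Scheme.{u}} {M N : X.Modules} (e : M ≅ N) (x : X) :
    LocCoh.depth (X.presheaf.stalk x) (M.presheaf.stalk x) =
      LocCoh.depth (X.presheaf.stalk x) (N.presheaf.stalk x) :=
  Ega4dB.DepthOpen.depth_congr_semilinear (RingEquiv.refl _)
    (Groth.Agent.Fdesc.Skyscraper.stalkIso e x).toAddEquiv
    (fun r m => (Groth.Agent.Fdesc.Skyscraper.stalkIso e x).map_smul r m)

/-- The depth of the stalk of `M~|_U`. -/
theorem depth_theta_stalk {A : Type u} [CommRing A] (U : (Spec (CommRingCat.of A)).Opens)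
    (M : Type u) [AddCommGroup M] [Module A M] (x : (U : Scheme.{u})) (p : PrimeSpectrum A)
    (hp : x.1 = p) :
    LocCoh.depth ((U : Scheme.{u}).presheaf.stalk x)
        (((Theta U).obj (ModuleCat.of A M)).presheaf.stalk x) =
      LocCoh.depth (Localization.AtPrime p.asIdeal) (LocalizedModule p.asIdeal.primeCompl M) := by
  subst hp
  refine (depth_restrict_stalk U.ι (tilde (R := CommRingCat.of A) (ModuleCat.of A M)) x).trans ?_
  exact depth_tilde_stalk (CommRingCat.of A) (ModuleCat.of A M) (U.ι x)

end Groth.Agent.Sga2lef.H94.StalkDepth
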