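import Groth.Prelude.Def_FEt
import Groth.Agent.Sga2lef.H94.PuncFin
import Groth.Agent.Sga2lef.H94.StalkDepth
import Groth.Agent.S2930
import Groth.Agent.FormalB.PuncTheta2

/-!
# Finiteness of `H^i(X, F)`, `X` the punctured spectrum of a quotient of a regular ring

* `finite_HH` : if `depth F_x ≥ n + 1` at all closed points `x` of `X` then `H^i(X, F)` is finite for `i ≤ n`.
-/

set_option autoImplicit false
universe u

open CategoryTheory CategoryTheory.Limits AlgebraicGeometry Opposite TopologicalSpace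
open Groth.Agent.FormalB.PuncTheta Groth.Agent.FormalA.HHLin

namespace Groth.Agent.Sga2lef.H94.PuncCoh

/-- Isomorphic modules have the same cohomology, linearly. -/
noncomputable def hhEquiv {A : Type u} [CommRing A] {X : Scheme.{u}} [X.Over (Spec (CommRingCat.of A))]
    {M N : X.Modules} (e : M ≅ N) (i : ℕ) : Coh.HH X M i ≃ₗ[A] Coh.HH X N i :=
  LinearEquiv.ofLinearMap (HHmap A e.hom i) (HHmap A e.inv i)
    (by rw [← HHmap_comp, e.inv_hom_id, HHmap_id]) (by rw [← HHmap_comp, e.hom_inv_id, HHmap_id])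

theorem puncturedSpec_eq (A : Type u) [CommRing A] [IsLocalRing A] :
    FEt.puncturedSpec A = LocCoh.puncturedOpen A (IsLocalRing.maximalIdeal A) := by
  apply TopologicalSpace.Opens.ext
  change ({IsLocalRing.closedPoint A}ᶜ : Set (PrimeSpectrum A)) =
    (PrimeSpectrum.zeroLocus (R := A) (IsLocalRing.maximalIdeal A : Set A))ᶜ
  congr 1
  ext x
  rw [Set.mem_singleton_iff, PrimeSpectrum.mem_zeroLocus]
  constructor
  · rintro rfl
    exact le_rfl
  · intro h
    apply PrimeSpectrum.ext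
    exact ((IsLocalRing.maximalIdeal.isMaximal A).eq_of_le x.isPrime.ne_top h).symm

theorem isClosed_of_covBy (A : Type u) [CommRing A] [IsLocalRing A]
    (x : (LocCoh.puncturedOpen A (IsLocalRing.maximalIdeal A) : Scheme.{u}))
    (p q : PrimeSpectrum A) (hxp : x.1 = p) (hq : IsLocalRing.maximalIdeal A ≤ q.asIdeal)
    (hpq : p ⋖ q) : IsClosed ({x} : Set (LocCoh.puncturedOpen A (IsLocalRing.maximalIdeal A) : Scheme.{u})) := by
  rw [← closure_subset_iff_isClosed]
  intro y hy
  have h1 : x ⤳ y := specializes_iff_mem_closure.2 hy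
  have h2 : x.1 ⤳ y.1 := h1.map continuous_subtype_val
  obtain ⟨r, hr⟩ : ∃ r : PrimeSpectrum A, y.1 = r := ⟨_, rfl⟩
  rw [hxp, hr] at h2
  have h3 : p ≤ r := (PrimeSpectrum.le_iff_specializes p r).2 h2
  have h4 : r ≤ q := by
    rw [← PrimeSpectrum.asIdeal_le_asIdeal]
    exact (IsLocalRing.le_maximalIdeal r.isPrime.ne_top).trans hq
  rcases hpq.eq_or_eq h3 h4 with h | h
  · exact Subtype.ext (hr.trans (h.trans hxp.symm))
  · have h5 : ¬ IsLocalRing.maximalIdeal A ≤ r.asIdeal := by
      rw [← hr]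
      exact y.2
    exact absurd (h ▸ hq) h5

theorem finite_HH' (R : Type u) [CommRing R] [IsRegularRing R] (A : Type u) [CommRing A] [IsLocalRing A]
    [IsNoetherianRing A] (π : R →+* A) (hπ : Function.Surjective π)
    (F : (LocCoh.puncturedOpen A (IsLocalRing.maximalIdeal A) : Scheme.{u}).Modules) (hF : Coh.IsCoh F)
    (n : ℕ) (hdepth : ∀ x : (LocCoh.puncturedOpen A (IsLocalRing.maximalIdeal A) : Scheme.{u}),
      IsClosed ({x} : Set (LocCoh.puncturedOpen A (IsLocalRing.maximalIdeal A) : Scheme.{u})) →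
      ((n + 1 : ℕ) : ℕ∞) ≤ LocCoh.depth
        ((LocCoh.puncturedOpen A (IsLocalRing.maximalIdeal A) : Scheme.{u}).presheaf.stalk x)
        (F.presheaf.stalk x)) (i : ℕ) (hi : i ≤ n) :
    Module.Finite A (Coh.HH (LocCoh.puncturedOpen A (IsLocalRing.maximalIdeal A) : Scheme.{u}) F i) := by
  have hUc : IsCompact (LocCoh.puncturedOpen A (IsLocalRing.maximalIdeal A) :
      Set (Spec (CommRingCat.of A))) := Groth.Agent.FormalA.InjSec.isCompact_opens _
  obtain ⟨M, _, _, hM, ⟨e⟩⟩ := Groth.Agent.FormalB.PuncTheta2.exists_finite_iso _ hUc F hF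
  have hlc := (Groth.Agent.S2930.result R A π hπ (IsLocalRing.maximalIdeal A) M (n + 1)).2 (by
    intro p q hp hq hpq
    let x : (LocCoh.puncturedOpen A (IsLocalRing.maximalIdeal A) : Scheme.{u}) := ⟨p, hp⟩
    have h1 := hdepth x (isClosed_of_covBy A x p q rfl hq hpq)
    rw [← StalkDepth.depth_stalk_iso e x, StalkDepth.depth_theta_stalk _ M x p rfl] at h1
    exact h1)
  have h := PuncFin.finite_HH_le (IsLocalRing.maximalIdeal A) M n hlc i hi
  exact Module.Finite.equiv (hhEquiv e i)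

theorem finite_HH_aux (R : Type u) [CommRing R] [IsRegularRing R] (A : Type u) [CommRing A] [IsLocalRing A]
    [IsNoetherianRing A] (π : R →+* A) (hπ : Function.Surjective π)
    (U : (Spec (CommRingCat.of A)).Opens) (hU : U = LocCoh.puncturedOpen A (IsLocalRing.maximalIdeal A))
    (F : (U : Scheme.{u}).Modules) (hF : Coh.IsCoh F)
    (n : ℕ) (hdepth : ∀ x : (U : Scheme.{u}), IsClosed ({x} : Set (U : Scheme.{u})) →
      ((n + 1 : ℕ) : ℕ∞) ≤ LocCoh.depth ((U : Scheme.{u}).presheaf.stalk x) (F.presheaf.stalk x))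
    (i : ℕ) (hi : i ≤ n) :
    Module.Finite A (Coh.HH (U : Scheme.{u}) F i) := by
  subst hU
  exact finite_HH' R A π hπ F hF n hdepth i hi

/-- Let `A` be a Noetherian local ring, quotient of a regular ring, `X` its punctured spectrum and `F` coherent on `X`
with `depth F_x ≥ n + 1` at all closed points of `X`. Then `H^i(X, F)` is a finite `A`-module for `i ≤ n`. -/
theorem finite_HH (R : Type u) [CommRing R] [IsRegularRing R] (A : Type u) [CommRing A] [IsLocalRing A]
    [IsNoetherianRing A] (π : R →+* A) (hπ : Function.Surjective π)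
    (F : (↑(FEt.puncturedSpec A) : Scheme.{u}).Modules) (hF : Coh.IsCoh F) (n : ℕ)
    (hdepth : ∀ x : (↑(FEt.puncturedSpec A) : Scheme.{u}),
      IsClosed ({x} : Set (↑(FEt.puncturedSpec A) : Scheme.{u})) →
      ((n + 1 : ℕ) : ℕ∞) ≤ LocCoh.depth ((↑(FEt.puncturedSpec A) : Scheme.{u}).presheaf.stalk x)
        (F.presheaf.stalk x)) (i : ℕ) (hi : i ≤ n) :
    Module.Finite A (Coh.HH (↑(FEt.puncturedSpec A) : Scheme.{u}) F i) :=
  finite_HH_aux R A π hπ (FEt.puncturedSpec A) (puncturedSpec_eq A) F hF n hdepth i hi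

end Groth.Agent.Sga2lef.H94.PuncCoh
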